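import Mathlib
import Cfsg.Agent.Lib.H4.SylRules

/-! The geometry of Sylow intersections, for the Sylow number 22. -/

set_option autoImplicit false

namespace H36.N22

open Subgroup MulAction
open scoped Pointwise

theorem dvd_ncard_of_fiber {α β : Type*} {s : Set α} (hs : s.Finite) (f : α → β) {d : ℕ}
    (h : ∀ x ∈ s, d ∣ {y ∈ s | f y = f x}.ncard) : d ∣ s.ncard := by
  classical
  lift s to Finset α using hs
  rw [Set.ncard_coe_finset, Finset.card_eq_sum_card_image f]
  refine Finset.dvd_sum fun b hb => ?_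
  obtain ⟨x, hx, rfl⟩ := Finset.mem_image.1 hb
  have := h x hx
  rwa [← Set.ncard_coe_finset, Finset.coe_filter]

theorem ncard_eq_mul {G Ω X : Type*} [Group G] [MulAction G Ω] [MulAction G X] [IsPretransitive G Ω]
    [Finite Ω] [Finite X] {S : Set (Ω × X)} (hS : ∀ g : G, ∀ x ∈ S, g • x ∈ S) (a : Ω) :
    S.ncard = Nat.card Ω * {x | (a, x) ∈ S}.ncard := by
  have e : S ≃ Ω × {x | (a, x) ∈ S} := by
    choose g hg using fun b : Ω => exists_smul_eq G a b
    refine ⟨fun y => (y.1.1, ⟨(g y.1.1)⁻¹ • y.1.2, ?_⟩), fun z => ⟨(z.1, g z.1 • z.2.1), ?_⟩,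
      fun y => by simp, fun z => by simp⟩
    · have := hS (g y.1.1)⁻¹ _ y.2
      rwa [Prod.smul_def, inv_smul_eq_iff.2 (hg y.1.1).symm] at this
    · have := hS (g z.1) _ z.2.2
      rwa [Prod.smul_mk, hg] at this
  rw [← Nat.card_coe_set_eq, Nat.card_congr e, Nat.card_prod, Nat.card_coe_set_eq]

theorem ncard_offDiag {α : Type*} {s : Set α} (hs : s.Finite) :
    s.offDiag.ncard = s.ncard * s.ncard - s.ncard := by
  classical
  lift s to Finset α using hs
  rw [← Finset.coe_offDiag, Set.ncard_coe_finset, Set.ncard_coe_finset, Finset.offDiag_card]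

theorem two_dvd_of_symm {α : Type*} {s : Set (α × α)} (hs : s.Finite)
    (h1 : ∀ x ∈ s, x.swap ∈ s) (h2 : ∀ x ∈ s, x.1 ≠ x.2) : 2 ∣ s.ncard := by
  refine dvd_ncard_of_fiber hs (fun x => s(x.1, x.2)) fun x hx => ?_
  have : {y ∈ s | s(y.1, y.2) = s(x.1, x.2)} = {x, x.swap} := by
    ext y
    simp only [Set.mem_ofPred_eq, Sym2.eq_iff, Set.mem_insert_iff, Set.mem_singleton_iff]
    constructor
    · rintro ⟨-, h | h⟩
      · exact Or.inl (Prod.ext h.1 h.2)
      · exact Or.inr (Prod.ext h.1 h.2)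
    · rintro (rfl | rfl)
      · exact ⟨hx, Or.inl ⟨rfl, rfl⟩⟩
      · exact ⟨h1 x hx, Or.inr ⟨rfl, rfl⟩⟩
  rw [this, Set.ncard_pair fun e => h2 x hx (congrArg Prod.fst e)]

variable {G : Type*} [Group G] [Finite G] {p : ℕ} [hp : Fact p.Prime]

/-- The index of `P ∩ R` in `P`. -/
noncomputable def d (P R : Sylow p G) : ℕ := (R : Subgroup G).relIndex P

/-- The intersection. -/
def I (P R : Sylow p G) : Subgroup G := (P : Subgroup G) ⊓ R

/-- The Sylow subgroups containing `E`. -/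
def F (p : ℕ) (E : Subgroup G) : Set (Sylow p G) := {Q | E ≤ Q}

omit [Finite G] hp in
theorem I_comm (P R : Sylow p G) : I P R = I R P := inf_comm _ _

omit [Finite G] hp in
theorem left_mem (P R : Sylow p G) : P ∈ F p (I P R) := (inf_le_left : I P R ≤ P)

omit [Finite G] hp in
theorem right_mem (P R : Sylow p G) : R ∈ F p (I P R) := (inf_le_right : I P R ≤ R)

omit [Finite G] hp in
theorem isPGroup_of_mem {E : Subgroup G} {Q : Sylow p G} (h : Q ∈ F p E) : IsPGroup p E :=
  Q.isPGroup'.to_le h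

theorem d_comm (P R : Sylow p G) : d P R = d R P := H4.relIndex_comm P R

omit [Finite G] hp in
theorem d_eq (P R : Sylow p G) : d P R = (I P R).relIndex P := by
  rw [d, I, inf_relIndex_left]

omit [Finite G] hp in
theorem d_self (P : Sylow p G) : d P P = 1 := relIndex_self _

omit [Finite G] hp in
theorem I_smul (g : G) (P R : Sylow p G) : I (g • P) (g • R) = MulAut.conj g • I P R := by
  rw [I, I, Sylow.coe_subgroup_smul, Sylow.coe_subgroup_smul, smul_inf]

omit [Finite G] hp in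
theorem d_smul (g : G) (P R : Sylow p G) : d (g • P) (g • R) = d P R := by
  rw [d, d, Sylow.coe_subgroup_smul, Sylow.coe_subgroup_smul, relIndex_pointwise_smul]

omit [Finite G] hp in
theorem smul_mem_F {g : G} {E : Subgroup G} {Q : Sylow p G} :
    g • Q ∈ F p (MulAut.conj g • E) ↔ Q ∈ F p E := by
  simp only [F, Set.mem_ofPred_eq, Sylow.coe_subgroup_smul, pointwise_smul_le_pointwise_smul_iff]

omit [Finite G] hp in
theorem ncard_F_smul (g : G) (E : Subgroup G) :
    (F p (MulAut.conj g • E)).ncard = (F p E).ncard := by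
  have : F p (MulAut.conj g • E) = (g • ·) '' F p E := by
    ext Q
    constructor
    · intro h
      exact ⟨g⁻¹ • Q, smul_mem_F.1 (by rwa [smul_inv_smul]), smul_inv_smul _ _⟩
    · rintro ⟨Q, h, rfl⟩
      exact smul_mem_F.2 h
  rw [this, Set.ncard_image_of_injective _ (MulAction.injective g)]

omit [Finite G] hp in
theorem smul_self {P : Sylow p G} {g : G} (h : g ∈ (P : Subgroup G)) : g • P = P :=
  Sylow.smul_eq_iff_mem_normalizer.2 (le_normalizer h)

omit [Finite G] hp in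
theorem conj_smul_eq_iff {g : G} {E : Subgroup G} :
    MulAut.conj g • E = E ↔ g ∈ normalizer (E : Set G) := by
  rw [mem_normalizer_iff_map_conj_eq]
  rfl

theorem relIndex_eq_of_mem {E : Subgroup G} {Q Q' : Sylow p G} (h : Q ∈ F p E) (h' : Q' ∈ F p E) :
    E.relIndex Q = E.relIndex Q' := by
  have h1 := card_mul_index (E.subgroupOf Q)
  have h2 := card_mul_index (E.subgroupOf Q')
  rw [Nat.card_congr (subgroupOfEquivOfLe h).toEquiv] at h1
  rw [Nat.card_congr (subgroupOfEquivOfLe h').toEquiv] at h2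
  have h4 : Nat.card (Q : Subgroup G) = Nat.card (Q' : Subgroup G) := by
    rw [Sylow.card_eq_multiplicity, Sylow.card_eq_multiplicity]
  rw [h4, ← h2] at h1
  exact Nat.eq_of_mul_eq_mul_left Nat.card_pos h1

omit [Finite G] hp in
theorem d_dvd {E : Subgroup G} {Q Q' : Sylow p G} (h' : Q' ∈ F p E) : d Q Q' ∣ E.relIndex Q :=
  relIndex_dvd_of_le_left _ h'

omit hp in
theorem eq_of_relIndex_eq {E D Q : Subgroup G} (h : E ≤ D) (h' : D ≤ Q)
    (e : D.relIndex Q = E.relIndex Q) : D = E := by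
  have h1 := relIndex_mul_relIndex _ _ _ h h'
  rw [← e] at h1
  have h0 : D.relIndex Q ≠ 0 := index_ne_zero_of_finite
  have : E.relIndex D = 1 := Nat.eq_of_mul_eq_mul_right (Nat.pos_of_ne_zero h0) (by rw [h1, one_mul])
  exact le_antisymm (relIndex_eq_one.1 this) h

omit hp in
theorem I_eq {E : Subgroup G} {Q Q' : Sylow p G} (h : Q ∈ F p E) (h' : Q' ∈ F p E)
    (e : d Q Q' = E.relIndex Q) : I Q Q' = E :=
  eq_of_relIndex_eq (le_inf h h') inf_le_left (by rw [← d_eq, e])

omit [Finite G] hp in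
theorem fix_iff {E : Subgroup G} (hE : IsPGroup p E) {Q : Sylow p G} :
    (∀ e ∈ E, e • Q = Q) ↔ Q ∈ F p E := by
  refine ⟨fun h => ?_, fun h e he => smul_self (h he)⟩
  have h1 : E ≤ normalizer (Q : Set G) := fun e he => Sylow.smul_eq_iff_mem_normalizer.1 (h e he)
  have := hE.inf_normalizer_sylow Q
  rw [inf_eq_left.2 h1] at this
  exact this.le.trans inf_le_right

theorem ncard_modEq {E : Subgroup G} (hE : IsPGroup p E) {s : Set (Sylow p G)}
    (hs : ∀ q ∈ E, ∀ ω ∈ s, q • ω ∈ s) : s.ncard ≡ (s ∩ F p E).ncard [MOD p] := by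
  have := ncard_modEq_fixed hE hs
  simp only [fix_iff hE] at this
  exact this

/-- Two points of a line determine it. -/
theorem line {P R Q Q' : Sylow p G} (h : d P R = p) (h1 : Q ∈ F p (I P R)) (h2 : Q' ∈ F p (I P R))
    (hne : Q' ≠ Q) : d Q Q' = p ∧ I Q Q' = I P R := by
  have e : (I P R).relIndex Q = p := by rw [relIndex_eq_of_mem h1 (left_mem P R), ← d_eq, h]
  have h3 := d_dvd (Q := Q) h2
  rw [e] at h3
  have h4 : d Q Q' = p := ((Nat.dvd_prime hp.out).1 h3).resolve_left (H4.relIndex_ne_one hne)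
  exact ⟨h4, I_eq h1 h2 (by rw [h4, e])⟩

omit [Finite G] in
theorem ne_of_d {P R : Sylow p G} {k : ℕ} (h : d P R = k) (hk : k ≠ 1) : R ≠ P := by
  rintro rfl
  exact hk (h.symm.trans (d_self _))

/-- The double counts for lines with `m` points. -/
theorem line_count {P R : Sylow p G} (h : d P R = p) :
    ∃ a, 0 < a ∧ a < Nat.card (Sylow p G) ∧ (F p (I P R)).ncard - 1 ∣ a ∧
      (F p (I P R)).ncard * (F p (I P R)).ncard - (F p (I P R)).ncard ∣ Nat.card (Sylow p G) * a := by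
  set m := (F p (I P R)).ncard with hm
  let S : Set (Sylow p G × Sylow p G) := {x | d x.1 x.2 = p ∧ (F p (I x.1 x.2)).ncard = m}
  have hS : ∀ g : G, ∀ x ∈ S, g • x ∈ S := fun g x hx =>
    ⟨(d_smul g _ _).trans hx.1, by
      rw [Prod.smul_fst, Prod.smul_snd, I_smul, ncard_F_smul]; exact hx.2⟩
  refine ⟨{x | (P, x) ∈ S}.ncard, ?_, ?_, ?_, ?_⟩
  · exact (Set.ncard_pos (Set.toFinite _)).2 ⟨R, h, rfl⟩
  · rw [← Set.ncard_univ]
    refine Set.ncard_lt_ncard ⟨Set.subset_univ _, fun hc => ?_⟩ (Set.toFinite _)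
    exact ne_of_d (hc (Set.mem_univ P)).1 hp.out.one_lt.ne' rfl
  · refine dvd_ncard_of_fiber (Set.toFinite _) (I P) fun Q hQ => ?_
    have : {y ∈ {x | (P, x) ∈ S} | I P y = I P Q} = F p (I P Q) \ {P} := by
      ext y
      constructor
      · rintro ⟨h1, h2⟩
        exact ⟨h2 ▸ right_mem P y, ne_of_d h1.1 hp.out.one_lt.ne'⟩
      · rintro ⟨h1, h2⟩
        obtain ⟨h3, h4⟩ := line hQ.1 (left_mem P Q) h1 h2
        exact ⟨⟨h3, by rw [h4]; exact hQ.2⟩, h4⟩
    rw [this, Set.ncard_sdiff_singleton_of_mem (left_mem P Q), hQ.2]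
  · rw [← ncard_eq_mul hS]
    refine dvd_ncard_of_fiber (Set.toFinite _) (fun x => I x.1 x.2) fun x hx => ?_
    have : {y ∈ S | I y.1 y.2 = I x.1 x.2} = (F p (I x.1 x.2)).offDiag := by
      ext y
      constructor
      · rintro ⟨h1, h2⟩
        exact ⟨h2 ▸ left_mem _ _, h2 ▸ right_mem _ _, (ne_of_d h1.1 hp.out.one_lt.ne').symm⟩
      · rintro ⟨h1, h2, h3⟩
        obtain ⟨h3, h4⟩ := line hx.1 h1 h2 h3.symm
        exact ⟨⟨h3, by rw [h4]; exact hx.2⟩, h4⟩
    rw [this, ncard_offDiag (Set.toFinite _), hx.2]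

/-- If all lines have `m` points. -/
theorem all_line_count {m : ℕ} (h : ∀ P R : Sylow p G, d P R = p → (F p (I P R)).ncard = m)
    (P : Sylow p G) : m * m - m ∣ Nat.card (Sylow p G) * {R | d P R = p}.ncard := by
  let S : Set (Sylow p G × Sylow p G) := {x | d x.1 x.2 = p}
  have hS : ∀ g : G, ∀ x ∈ S, g • x ∈ S := fun g x hx => (d_smul g _ _).trans hx
  have := ncard_eq_mul hS P
  change _ = _ * {R | d P R = p}.ncard at this
  rw [← this]
  refine dvd_ncard_of_fiber (Set.toFinite _) (fun x => I x.1 x.2) fun x hx => ?_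
  have : {y ∈ S | I y.1 y.2 = I x.1 x.2} = (F p (I x.1 x.2)).offDiag := by
    ext y
    constructor
    · rintro ⟨h1, h2⟩
      exact ⟨h2 ▸ left_mem _ _, h2 ▸ right_mem _ _, (ne_of_d h1 hp.out.one_lt.ne').symm⟩
    · rintro ⟨h1, h2, h3⟩
      exact line hx h1 h2 h3.symm
  rw [this, ncard_offDiag (Set.toFinite _), h _ _ hx]

theorem ncard_F_modEq {E : Subgroup G} (hE : IsPGroup p E) : (F p E).ncard ≡ 1 [MOD p] := by
  have := ncard_modEq hE (s := Set.univ) fun _ _ _ _ => trivial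
  rw [Set.univ_inter, Set.ncard_univ] at this
  exact this.symm.trans (card_sylow_modEq_one p G)

theorem normal_of_d {P R : Sylow p G} (h : d P R = p) :
    (P : Subgroup G) ≤ normalizer (I P R : Set G) :=
  H4.le_normalizer_of_relIndex_eq P.isPGroup' inf_le_left (by rw [← d_eq, h])

omit [Finite G] hp in
theorem orbit_d {P R Q : Sylow p G} (h : Q ∈ orbit (P : Subgroup G) R) : d P Q = d P R := by
  obtain ⟨g, hg, rfl⟩ := H61.mem_orbit_subgroup.1 h
  rw [← d_smul g P R, smul_self hg]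

end H36.N22
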