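import Mathlib
import Cfsg.Agent.Lib.Small36.N22a
import Cfsg.Agent.Lib.H4.Sieve
import Cfsg.Agent.S4208

/-! No finite group has 22 Sylow 3-subgroups. -/

set_option autoImplicit false

namespace H36.N22

open Subgroup MulAction
open scoped Pointwise

variable {G : Type*} [Group G] [Finite G]

/-- The points joined to `P` by a line. -/
def A (P : Sylow 3 G) : Set (Sylow 3 G) := {R | d P R = 3}

/-- The other points. -/
def B (P : Sylow 3 G) : Set (Sylow 3 G) := {R | 9 ∣ d P R}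

theorem cases (P R : Sylow 3 G) : R = P ∨ R ∈ A P ∨ R ∈ B P := by
  obtain ⟨j, hj⟩ := H4.exists_relIndex_eq_pow P R
  rcases j with _ | _ | j
  · left
    by_contra h
    exact H4.relIndex_ne_one h (by simpa using hj)
  · exact Or.inr (Or.inl (by simpa [A, d] using hj))
  · exact Or.inr (Or.inr (by
      change 9 ∣ (R : Subgroup G).relIndex P
      rw [hj]; exact ⟨3 ^ j, by ring⟩))

omit [Finite G] in
theorem ne_of_A {P R : Sylow 3 G} (h : R ∈ A P) : R ≠ P := ne_of_d h (by norm_num)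

omit [Finite G] in
theorem ne_of_B {P R : Sylow 3 G} (h : R ∈ B P) : R ≠ P := by
  rintro rfl
  have : 9 ∣ d R R := h
  rw [d_self] at this
  omega

omit [Finite G] in
theorem not_A_of_B {P R : Sylow 3 G} (h : R ∈ B P) : R ∉ A P := fun h' => by
  have : 9 ∣ d P R := h
  rw [show d P R = 3 from h'] at this
  omega

theorem A_symm {P R : Sylow 3 G} (h : R ∈ A P) : P ∈ A R := (d_comm R P).trans h

theorem B_symm {P R : Sylow 3 G} (h : R ∈ B P) : P ∈ B R := by
  change 9 ∣ d R P
  rw [d_comm]; exact h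

omit [Finite G] in
theorem smul_mem_A {P R : Sylow 3 G} (g : G) (h : R ∈ A P) : g • R ∈ A (g • P) :=
  (d_smul g P R).trans h

omit [Finite G] in
theorem smul_mem_B {P R : Sylow 3 G} (g : G) (h : R ∈ B P) : g • R ∈ B (g • P) := by
  change 9 ∣ d _ _
  rw [d_smul]; exact h

theorem ncard_split {P : Sylow 3 G} {s : Set (Sylow 3 G)} (h : P ∈ s) :
    s.ncard = 1 + (s ∩ A P).ncard + (s ∩ B P).ncard := by
  have e : s = ({P} ∪ s ∩ A P) ∪ s ∩ B P := by
    ext R
    constructor
    · intro hR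
      rcases cases P R with h | h | h
      · exact Or.inl (Or.inl h)
      · exact Or.inl (Or.inr ⟨hR, h⟩)
      · exact Or.inr ⟨hR, h⟩
    · rintro ((rfl | h) | h)
      · exact h
      · exact h.1
      · exact h.1
  conv_lhs => rw [e]
  rw [Set.ncard_union_eq, Set.ncard_union_eq, Set.ncard_singleton]
  · exact Set.disjoint_left.2 fun R h1 h2 => ne_of_A h2.2 h1
  · refine Set.disjoint_left.2 fun R h1 h2 => ?_
    rcases h1 with h1 | h1
    · exact ne_of_B h2.2 h1
    · exact not_A_of_B h2.2 h1.2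

section main

variable [IsSimpleGroup G] (hG : ¬ IsMulCommutative G) (hn : Nat.card (Sylow 3 G) = 22)
include hG hn

theorem three_dvd : 3 ∣ Nat.card G := by
  by_contra h
  obtain ⟨P⟩ : Nonempty (Sylow 3 G) := inferInstance
  have hb : ∀ Q : Sylow 3 G, (Q : Subgroup G) = ⊥ := fun Q => by
    rw [← card_eq_one, Sylow.card_eq_multiplicity, Nat.factorization_eq_zero_of_not_dvd h, pow_zero]
  have : Subsingleton (Sylow 3 G) := ⟨fun Q R => Sylow.ext ((hb Q).trans (hb R).symm)⟩
  have := Nat.card_eq_one_iff_unique.2 ⟨this, ⟨P⟩⟩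
  omega

theorem card_ne_three (P : Sylow 3 G) : Nat.card P ≠ 3 := by
  intro hP
  let _ := Fintype.ofFinite G
  obtain ⟨M, hM⟩ := H33.exists_isPModular 3
  have hperf := commutator_eq_top_of_simple hG
  obtain ⟨X⟩ := H4.nonempty_B0 hperf hM (by norm_num) P hP
  obtain ⟨c, hc⟩ := H4.Sv.exists_card_cent P hP
  have N := H4.B0.num hG hM hP hc rfl X
  have h1 := relIndex_cent_dvd_prime (p := 3) (by norm_num) hP
  have h2 : (centralizer ((P : Subgroup G) : Set G)).relIndex
      (normalizer ((P : Subgroup G) : Set G)) ≠ 1 := fun h =>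
    not_norm_le_cent hG (three_dvd hG hn) P (relIndex_eq_one.1 h)
  have h3 := ((Nat.dvd_prime Nat.prime_two).1 h1).resolve_left h2
  generalize X.L = L at N
  generalize X.D = D at N
  rw [h3, hn] at N
  obtain ⟨a, ha⟩ := Multiset.card_eq_one.1 (show Multiset.card L = 1 by have := N.card; omega)
  have h4 := N.mod a (by simp [ha])
  have h5 := N.two a (by simp [ha])
  have h6 := N.dvd a (by simp [ha])
  have h7 := N.dtwo
  have h8 := N.ddvd
  rw [N.deq, ha, Multiset.sum_singleton] at h7 h8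
  have h9 := Nat.le_of_dvd (by norm_num) h6
  have h10 : -44 ≤ a := by omega
  have h11 : a ≤ 44 := by omega
  interval_cases a <;> simp_all [Int.ModEq]

theorem card_line {P R : Sylow 3 G} (h : R ∈ A P) : (F 3 (I P R)).ncard = 4 := by
  obtain ⟨a, h1, h2, h3, h4⟩ := line_count (p := 3) h
  have h5 := ncard_F_modEq (isPGroup_of_mem (left_mem P R))
  have h6 : 2 ≤ (F 3 (I P R)).ncard := by
    rw [← Set.ncard_pair (ne_of_A h)]
    exact Set.ncard_le_ncard (Set.pair_subset (right_mem P R) (left_mem P R))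
  have h7 : (F 3 (I P R)).ncard < 22 := by
    rw [← hn, ← Set.ncard_univ]
    refine Set.ncard_lt_ncard ⟨Set.subset_univ _, fun hc => ?_⟩ (Set.toFinite _)
    have : I P R = ⊥ := eq_bot_iff.2 fun g hg => faithful_sylow hG (three_dvd hG hn) fun Q =>
      smul_self (hc (Set.mem_univ Q) hg)
    have h8 : d P R = 3 := h
    rw [d_eq, this, relIndex_bot_left] at h8
    exact card_ne_three hG hn P h8
  rw [hn] at h2 h4
  generalize (F 3 (I P R)).ncard = m at *
  interval_cases m <;> simp_all [Nat.ModEq] <;> omega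

theorem card_AB (P : Sylow 3 G) : (A P).ncard = 12 ∧ (B P).ncard = 9 := by
  have h1 := ncard_split (Set.mem_univ P)
  rw [Set.univ_inter, Set.univ_inter, Set.ncard_univ, hn] at h1
  have h2 : 9 ∣ (B P).ncard := by
    refine H61.dvd_ncard_of_orbits (P : Subgroup G) _ (Set.toFinite _) (fun g hg R hR => ?_)
      fun R hR => ?_
    · have := smul_mem_B g hR
      rwa [smul_self hg] at this
    · rw [H4.ncard_orbit_sylow]; exact hR
  have h3 := all_line_count (p := 3) (fun P R h => card_line hG hn h) P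
  rw [hn] at h3
  change 12 ∣ 22 * (A P).ncard at h3
  omega

theorem orbit_eq_B {P R : Sylow 3 G} (h : R ∈ B P) : orbit (P : Subgroup G) R = B P ∧ d P R = 9 := by
  have h1 : orbit (P : Subgroup G) R ⊆ B P := fun Q hQ => by
    change 9 ∣ d P Q
    rw [orbit_d hQ]; exact h
  have h2 := Set.ncard_le_ncard h1
  rw [(card_AB hG hn P).2, H4.ncard_orbit_sylow] at h2
  have h3 : d P R = 9 := le_antisymm h2 (Nat.le_of_dvd (Nat.pos_of_ne_zero index_ne_zero_of_finite) h)
  refine ⟨Set.eq_of_subset_of_ncard_le h1 ?_, h3⟩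
  rw [(card_AB hG hn P).2, H4.ncard_orbit_sylow]
  exact h3.ge

theorem pair_trans {P R P' R' : Sylow 3 G} (h : R ∈ B P) (h' : R' ∈ B P') :
    ∃ g : G, g • P = P' ∧ g • R = R' := by
  obtain ⟨g, rfl⟩ := exists_smul_eq G P P'
  have h1 : g⁻¹ • R' ∈ B P := by simpa using smul_mem_B g⁻¹ h'
  rw [← (orbit_eq_B hG hn h).1] at h1
  obtain ⟨x, hx, e⟩ := H61.mem_orbit_subgroup.1 h1
  exact ⟨g * x, by rw [mul_smul, smul_self hx], by rw [mul_smul, e, smul_inv_smul]⟩

theorem I_eq_B {P R Q : Sylow 3 G} (h : R ∈ B P) (h1 : Q ∈ F 3 (I P R)) (h2 : Q ∈ B P) :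
    I P Q = I P R :=
  I_eq (left_mem P R) h1 (by rw [← d_eq, (orbit_eq_B hG hn h).2, (orbit_eq_B hG hn h2).2])

theorem B_subset {P R : Sylow 3 G} (h : R ∈ B P)
    (hN : (P : Subgroup G) ≤ normalizer (I P R : Set G)) : B P ⊆ F 3 (I P R) := by
  intro Q hQ
  rw [← (orbit_eq_B hG hn h).1] at hQ
  obtain ⟨x, hx, rfl⟩ := H61.mem_orbit_subgroup.1 hQ
  rw [← conj_smul_eq_iff.2 (hN hx)]
  exact smul_mem_F.2 (right_mem P R)

theorem card_FB {P R : Sylow 3 G} (h : R ∈ B P)
    (hN : ¬ (P : Subgroup G) ≤ normalizer (I P R : Set G)) : (F 3 (I P R) ∩ B P).ncard = 3 := by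
  have h1 : F 3 (I P R) ∩ B P = orbit ↥((P : Subgroup G) ⊓ normalizer (I P R : Set G)) R := by
    ext Q
    rw [H61.mem_orbit_subgroup]
    constructor
    · rintro ⟨h1, h2⟩
      have h3 := I_eq_B hG hn h h1 h2
      rw [← (orbit_eq_B hG hn h).1] at h2
      obtain ⟨x, hx, rfl⟩ := H61.mem_orbit_subgroup.1 h2
      refine ⟨x, ⟨hx, conj_smul_eq_iff.1 ?_⟩, rfl⟩
      rw [← I_smul, smul_self hx, h3]
    · rintro ⟨x, hx, rfl⟩
      refine ⟨?_, ?_⟩
      · rw [← conj_smul_eq_iff.2 hx.2]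
        exact smul_mem_F.2 (right_mem P R)
      · have := smul_mem_B x h
        rwa [smul_self hx.1] at this
  obtain ⟨k, hk⟩ := H61.exists_ncard_orbit (p := 3)
    (P.isPGroup'.to_le (inf_le_left : (P : Subgroup G) ⊓ normalizer (I P R : Set G) ≤ P)) R
  rw [← h1] at hk
  have h2 := ncard_modEq (isPGroup_of_mem (left_mem P R)) (s := B P) fun q hq Q hQ => by
    have := smul_mem_B q hQ
    rwa [smul_self hq.1] at this
  rw [(card_AB hG hn P).2, Set.inter_comm] at h2
  have h3 : (F 3 (I P R) ∩ B P).ncard < 9 := by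
    rw [← (card_AB hG hn P).2]
    refine Set.ncard_lt_ncard ⟨Set.inter_subset_right, fun hc => hN fun x hx => ?_⟩ (Set.toFinite _)
    have h4 : x • R ∈ B P := by
      have := smul_mem_B x h
      rwa [smul_self hx] at this
    refine conj_smul_eq_iff.1 ?_
    rw [← I_smul, smul_self hx, I_eq_B hG hn h (hc h4).1 h4]
  rw [hk] at h2 h3 ⊢
  rcases k with _ | _ | k
  · simp [Nat.ModEq] at h2
  · rfl
  · have : 0 < 3 ^ k := by positivity
    rw [pow_succ, pow_succ] at h3
    omega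

theorem I_eq_A {P R Q Q' : Sylow 3 G} (h : R ∈ B P)
    (hN : ¬ (P : Subgroup G) ≤ normalizer (I P R : Set G)) (h1 : Q ∈ F 3 (I P R) ∩ A P)
    (h2 : Q' ∈ F 3 (I P R) ∩ A P) : I P Q' = I P Q := by
  by_contra hne
  apply hN
  have a1 : I P R ≤ I P Q ⊓ I P Q' := le_inf (le_inf inf_le_left h1.1) (le_inf inf_le_left h2.1)
  have a2 : (I P Q ⊓ I P Q').relIndex P ∣ 3 ^ 2 := by
    have := relIndex_dvd_of_le_left (P : Subgroup G) a1
    rwa [← d_eq, (orbit_eq_B hG hn h).2] at this
  have a3 : 3 ∣ (I P Q ⊓ I P Q').relIndex P := by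
    have := relIndex_dvd_of_le_left (P : Subgroup G) (inf_le_left : I P Q ⊓ I P Q' ≤ _)
    rwa [← d_eq, show d P Q = 3 from h1.2] at this
  obtain ⟨k, hk, e⟩ := (Nat.dvd_prime_pow Nat.prime_three).1 a2
  interval_cases k
  · rw [e] at a3; omega
  · exfalso
    have b1 := eq_of_relIndex_eq (inf_le_left : I P Q ⊓ I P Q' ≤ _) (inf_le_left : I P Q ≤ P)
      (by rw [← d_eq, show d P Q = 3 from h1.2, e]; rfl)
    have b2 := eq_of_relIndex_eq (inf_le_right : I P Q ⊓ I P Q' ≤ _) (inf_le_left : I P Q' ≤ P)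
      (by rw [← d_eq, show d P Q' = 3 from h2.2, e]; rfl)
    exact hne (b2.trans b1.symm)
  · have b1 := eq_of_relIndex_eq a1 (inf_le_left.trans inf_le_left : I P Q ⊓ I P Q' ≤ P)
      (by rw [← d_eq, (orbit_eq_B hG hn h).2, e]; rfl)
    rw [← b1]
    exact (le_inf (normal_of_d h1.2) (normal_of_d h2.2)).trans inf_normalizer_le_normalizer_inf

theorem card_FA {P R Q : Sylow 3 G} (h : R ∈ B P)
    (hN : ¬ (P : Subgroup G) ≤ normalizer (I P R : Set G)) (h1 : Q ∈ F 3 (I P R) ∩ A P) :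
    (F 3 (I P R) ∩ A P).ncard = 3 := by
  have : F 3 (I P R) ∩ A P = F 3 (I P Q) \ {P} := by
    ext Q'
    constructor
    · intro h2
      exact ⟨I_eq_A hG hn h hN h1 h2 ▸ right_mem P Q', ne_of_A h2.2⟩
    · rintro ⟨h2, h3⟩
      exact ⟨(le_inf inf_le_left h1.1 : I P R ≤ I P Q).trans h2, (line h1.2 (left_mem P Q) h2 h3).1⟩
  rw [this, Set.ncard_sdiff_singleton_of_mem (left_mem P Q), card_line hG hn h1.2]

theorem card_pairs : {x : Sylow 3 G × Sylow 3 G | x.2 ∈ B x.1}.ncard = 198 := by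
  obtain ⟨P⟩ : Nonempty (Sylow 3 G) := inferInstance
  have := ncard_eq_mul (G := G) (S := {x : Sylow 3 G × Sylow 3 G | x.2 ∈ B x.1})
    (fun g x hx => smul_mem_B (P := x.1) (R := x.2) g hx) P
  rw [this, hn]
  exact congrArg (22 * ·) (card_AB hG hn P).2

theorem not_four (hN : ∀ P R : Sylow 3 G, R ∈ B P → ¬ (P : Subgroup G) ≤ normalizer (I P R : Set G))
    (h4 : ∀ P R : Sylow 3 G, R ∈ B P → F 3 (I P R) ∩ A P = ∅) : False := by
  have : 12 ∣ {x : Sylow 3 G × Sylow 3 G | x.2 ∈ B x.1}.ncard := by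
    refine dvd_ncard_of_fiber (Set.toFinite _) (fun x => I x.1 x.2) fun x hx => ?_
    obtain ⟨P, R⟩ := x
    have key : ∀ P R : Sylow 3 G, R ∈ B P → ∀ Q ∈ F 3 (I P R), Q ≠ P → Q ∈ B P ∧ I P Q = I P R := by
      intro P R h Q h1 h2
      rcases cases P Q with h3 | h3 | h3
      · exact absurd h3 h2
      · exact absurd (show Q ∈ F 3 (I P R) ∩ A P from ⟨h1, h3⟩) (by rw [h4 P R h]; simp)
      · exact ⟨h3, I_eq_B hG hn h h1 h3⟩
    have : {y ∈ {x : Sylow 3 G × Sylow 3 G | x.2 ∈ B x.1} | I y.1 y.2 = I P R} =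
        (F 3 (I P R)).offDiag := by
      ext ⟨Q, Q'⟩
      constructor
      · rintro ⟨h1, h2⟩
        exact ⟨h2 ▸ left_mem _ _, h2 ▸ right_mem _ _, (ne_of_B h1).symm⟩
      · rintro ⟨h1, h2, h3⟩
        by_cases e : Q = P
        · subst e
          exact key _ _ hx _ h2 h3.symm
        · obtain ⟨a1, a2⟩ := key _ _ hx _ h1 e
          rw [I_comm] at a2
          rw [← a2] at h2 ⊢
          exact key _ _ (B_symm a1) _ h2 h3.symm
    rw [this, ncard_offDiag (Set.toFinite _), ncard_split (left_mem P R), h4 P R hx,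
      card_FB hG hn hx (hN P R hx)]
    simp
  rw [card_pairs hG hn] at this
  omega

theorem not_seven (hN : ∀ P R : Sylow 3 G, R ∈ B P → ¬ (P : Subgroup G) ≤ normalizer (I P R : Set G))
    (h7 : ∀ P R : Sylow 3 G, R ∈ B P → (F 3 (I P R) ∩ A P).Nonempty) : False := by
  let T : Set (Sylow 3 G × Sylow 3 G × Sylow 3 G) :=
    {y | y.2.2 ∈ B y.2.1 ∧ y.1 ∈ F 3 (I y.2.1 y.2.2) ∧ y.1 ∈ A y.2.1 ∧ y.1 ∈ A y.2.2}
  have h1 : T.ncard = 198 := by
    rw [← card_pairs hG hn]
    refine Set.ncard_congr (fun y _ => y.2) (fun y hy => hy.1) ?_ ?_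
    · rintro ⟨c, P, R⟩ ⟨c', P', R'⟩ ⟨a1, a2, a3, a4⟩ ⟨-, b2, b3, b4⟩ ⟨⟩
      by_contra hne
      have hne : c' ≠ c := fun e => hne (by rw [e])
      have e1 := I_eq_A hG hn a1 (hN _ _ a1) ⟨a2, a3⟩ ⟨b2, b3⟩
      have e2 := I_eq_A hG hn (B_symm a1) (hN _ _ (B_symm a1)) ⟨I_comm P R ▸ a2, a4⟩
        ⟨I_comm P R ▸ b2, b4⟩
      have e3 := (line a3 (right_mem P c) (e1 ▸ right_mem P c') hne).2
      have e4 := (line a4 (right_mem R c) (e2 ▸ right_mem R c') hne).2
      exact not_A_of_B a1 (line a3 (left_mem P c) (e3 ▸ e4 ▸ left_mem R c) (ne_of_B a1)).1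
    · rintro ⟨P, R⟩ h
      obtain ⟨Q, hQ⟩ := h7 P R h
      obtain ⟨Q', hQ'⟩ := h7 R P (B_symm h)
      have c1 := card_FA hG hn h (hN _ _ h) hQ
      have c2 := card_FA hG hn (B_symm h) (hN _ _ (B_symm h)) hQ'
      have c3 := ncard_split (left_mem P R)
      rw [c1, card_FB hG hn h (hN _ _ h)] at c3
      rw [I_comm R P] at c2
      by_contra hc
      have hd : Disjoint (F 3 (I P R) ∩ A P) (F 3 (I P R) ∩ A R) :=
        Set.disjoint_left.2 fun c a1 a2 => hc ⟨(c, P, R), ⟨h, a1.1, a1.2, a2.2⟩, rfl⟩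
      have hs : (F 3 (I P R) ∩ A P) ∪ (F 3 (I P R) ∩ A R) ⊆ F 3 (I P R) \ {P, R} := by
        rintro c (a | a)
        · refine ⟨a.1, ?_⟩
          rintro (rfl | rfl)
          · exact ne_of_A a.2 rfl
          · exact not_A_of_B h a.2
        · refine ⟨a.1, ?_⟩
          rintro (rfl | rfl)
          · exact not_A_of_B (B_symm h) a.2
          · exact ne_of_A a.2 rfl
      have := Set.ncard_le_ncard hs
      rw [Set.ncard_union_eq hd, c1, c2, Set.ncard_sdiff (Set.pair_subset (left_mem P R) (right_mem P R)),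
        c3, Set.ncard_pair (ne_of_B h).symm] at this
      omega
  obtain ⟨c⟩ : Nonempty (Sylow 3 G) := inferInstance
  have h2 := ncard_eq_mul (G := G) (S := T) (fun g y hy => ⟨smul_mem_B g hy.1, by
    change g • y.1 ∈ F 3 (I (g • y.2.1) (g • y.2.2))
    rw [I_smul]; exact smul_mem_F.2 hy.2.1, smul_mem_A g hy.2.2.1, smul_mem_A g hy.2.2.2⟩) c
  have h3 : 2 ∣ {x | (c, x) ∈ T}.ncard := two_dvd_of_symm (Set.toFinite _)
    (fun x hx => ⟨B_symm hx.1, I_comm x.1 x.2 ▸ hx.2.1, hx.2.2.2, hx.2.2.1⟩)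
    fun x hx => (ne_of_B hx.1).symm
  rw [h1, hn] at h2
  omega

theorem exists_normal : ∃ P R : Sylow 3 G, R ∈ B P ∧
    (P : Subgroup G) ≤ normalizer (I P R : Set G) := by
  by_contra hc
  push Not at hc
  by_cases h : ∀ P R : Sylow 3 G, R ∈ B P → F 3 (I P R) ∩ A P = ∅
  · exact not_four hG hn hc h
  · push Not at h
    obtain ⟨P, R, h, Q, hQ⟩ := h
    refine not_seven hG hn hc fun P' R' h' => ?_
    obtain ⟨g, rfl, rfl⟩ := pair_trans hG hn h h'
    exact ⟨g • Q, by rw [I_smul]; exact smul_mem_F.2 hQ.1, smul_mem_A g hQ.2⟩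

theorem exists_card_nine : ∃ P : Sylow 3 G, Nat.card P = 9 := by
  obtain ⟨P, R, h, hP⟩ := exists_normal hG hn
  have hR : (R : Subgroup G) ≤ normalizer (I P R : Set G) := by
    obtain ⟨g, h1, h2⟩ := pair_trans hG hn h (B_symm h)
    have e : MulAut.conj g • I P R = I P R := by rw [← I_smul, h1, h2, I_comm]
    intro x hx
    have hx' : g⁻¹ * x * g ∈ (P : Subgroup G) := by
      rw [← h1, Sylow.coe_subgroup_smul, mem_pointwise_smul_iff_inv_smul_mem] at hx
      simpa using hx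
    have hg := conj_smul_eq_iff.1 e
    have := mul_mem (mul_mem hg (hP hx')) (inv_mem hg)
    simpa [mul_assoc] using this
  have hN : stabilizer G P ≤ normalizer (I P R : Set G) := by
    intro x hx
    have h1 : x • R ∈ B P := by
      have := smul_mem_B x h
      rwa [hx] at this
    refine conj_smul_eq_iff.1 ?_
    rw [← I_smul, hx, I_eq_B hG hn h (B_subset hG hn h hP h1) h1]
  set H := normalizer (I P R : Set G) with hH
  have h1 : (orbit H P).ncard * H.index = 22 := by
    rw [← H61.relIndex_stabilizer, relIndex_mul_index hN, index_stabilizer_of_transitive, hn]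
  have h2 := ncard_modEq P.isPGroup' (s := orbit H P) fun q hq Q hQ => by
    obtain ⟨x, hx, rfl⟩ := H61.mem_orbit_subgroup.1 hQ
    exact H61.mem_orbit_subgroup.2 ⟨q * x, mul_mem (hP hq) hx, mul_smul _ _ _⟩
  have h3 : orbit H P ∩ F 3 P = {P} := by
    ext Q
    refine ⟨fun hQ => Sylow.ext (P.is_maximal' Q.isPGroup' hQ.2), ?_⟩
    rintro rfl
    exact ⟨mem_orbit_self _, (le_rfl : (Q : Subgroup G) ≤ Q)⟩
  rw [h3, Set.ncard_singleton] at h2
  have h4 : (orbit H P).ncard ≠ 1 := by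
    rw [← H61.relIndex_stabilizer, Ne, relIndex_eq_one]
    intro hle
    have : P ∈ F 3 R := (fix_iff R.isPGroup').1 fun x hx => hle (hR hx)
    exact ne_of_B h (Sylow.ext (R.is_maximal' P.isPGroup' this)).symm
  have h5 : H.index = 1 := by
    have h6 : (orbit H P).ncard ≤ 22 := Nat.le_of_dvd (by norm_num) ⟨_, h1.symm⟩
    generalize (orbit H P).ncard = m at *
    interval_cases m <;> simp_all [Nat.ModEq] <;> omega
  rw [index_eq_one, hH, normalizer_eq_top_iff] at h5
  rcases IsSimpleGroup.eq_bot_or_eq_top_of_normal _ h5 with h6 | h6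
  · have := (orbit_eq_B hG hn h).2
    rw [d_eq, h6, relIndex_bot_left] at this
    exact ⟨P, this⟩
  · have := isPGroup_of_mem (left_mem P R)
    rw [h6] at this
    exact absurd (this.of_equiv topEquiv) (not_isPGroup_of_simple hG 3)

theorem cent_le {P : Sylow 3 G} (hP : Nat.card P = 9) :
    centralizer ((P : Subgroup G) : Set G) ≤ P := by
  intro c hc
  have hcP : c • P = P := Sylow.smul_eq_iff_mem_normalizer.2 (centralizer_le_normalizer _ hc)
  have h1 : ∀ Q : Sylow 3 G, c • Q ∈ orbit (P : Subgroup G) Q := by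
    intro Q
    rcases cases P Q with rfl | h | h
    · rw [hcP]; exact mem_orbit_self _
    · have e : orbit (P : Subgroup G) Q = F 3 (I P Q) \ {P} := by
        refine Set.eq_of_subset_of_ncard_le (fun R hR => ?_) ?_
        · refine ⟨?_, ne_of_d ((orbit_d hR).trans h) (by norm_num)⟩
          obtain ⟨x, hx, rfl⟩ := H61.mem_orbit_subgroup.1 hR
          rw [← conj_smul_eq_iff.2 (normal_of_d h hx)]
          exact smul_mem_F.2 (right_mem P Q)
        · rw [Set.ncard_sdiff_singleton_of_mem (left_mem P Q), card_line hG hn h,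
            H4.ncard_orbit_sylow]
          exact (show d P Q = 3 from h).ge
      rw [e]
      refine ⟨?_, fun e' => ne_of_A h (smul_left_cancel c (e'.trans hcP.symm))⟩
      rw [← conj_smul_eq_iff.2 (centralizer_le_normalizer _
        (centralizer_le (show (I P Q : Set G) ⊆ (P : Subgroup G) from fun x hx => hx.1) hc))]
      exact smul_mem_F.2 (right_mem P Q)
    · rw [(orbit_eq_B hG hn h).1]
      have := smul_mem_B c h
      rwa [hcP] at this
  have h2 : c ^ 3 ^ 2 = 1 := by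
    refine faithful_sylow hG (three_dvd hG hn) fun Q => ?_
    obtain ⟨x, hx, e⟩ := H61.mem_orbit_subgroup.1 (h1 Q)
    have hcx : Commute x c := hc x hx
    have : ∀ k : ℕ, c ^ k • Q = x ^ k • Q := by
      intro k
      induction k with
      | zero => simp
      | succ k ih => rw [pow_succ, mul_smul, ← e, ← mul_smul, ← (hcx.pow_right k).eq, mul_smul, ih,
          ← mul_smul, pow_succ']
    rw [this, show x ^ 3 ^ 2 = 1 from by
      have := pow_card_eq_one' (x := (⟨x, hx⟩ : (P : Subgroup G)))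
      rw [hP] at this
      exact congrArg Subtype.val this, one_smul]
  have h3 : IsPGroup 3 (zpowers c) := by
    obtain ⟨k, -, hk⟩ := (Nat.dvd_prime_pow Nat.prime_three).1 (orderOf_dvd_of_pow_eq_one h2)
    exact IsPGroup.of_card (n := k) (by rw [Nat.card_zpowers, hk])
  exact (fix_iff h3).1 (fun e he => (zpowers_le.2 (mem_stabilizer_iff.2 hcP) :
    zpowers c ≤ stabilizer G P) he) (mem_zpowers c)

theorem false_of_simple : False := by
  obtain ⟨P, hP⟩ := exists_card_nine hG hn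
  have h1 : Nat.card (MulAut P) ∣ 48 := by
    obtain ⟨r, hr, e⟩ := (Nat.dvd_prime_pow Nat.prime_three).1
      (show (frattini P).index ∣ 3 ^ 2 from (index_dvd_card _).trans hP.dvd)
    have := Cfsg.Agent.S4208.result (n := 2) hP e
    interval_cases r <;> exact this.trans (by decide)
  have h2 : Nat.card (centralizer ((P : Subgroup G) : Set G)) = 9 := by
    refine Nat.dvd_antisymm (hP ▸ card_dvd_of_le (cent_le hG hn hP)) (hP ▸ card_dvd_of_le ?_)
    have : IsMulCommutative P := IsPGroup.isMulCommutative_of_card_eq_prime_sq (p := 3) hP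
    exact le_centralizer _
  have h3 := card_eq_sylow_mul P
  rw [card_norm_eq, h2, hn] at h3
  have h4 := (relIndex_cent_dvd (P : Subgroup G)).trans h1
  generalize (centralizer ((P : Subgroup G) : Set G)).relIndex _ = e at h3 h4
  have h5 : e ∈ Nat.divisors 48 := Nat.mem_divisors.2 ⟨h4, by norm_num⟩
  have h6 : ∀ e ∈ Nat.divisors 48, H4.Sv.kill (22 * (e * 9)) = true := by decide +kernel
  exact H4.Sv.card_ne hG (h6 e h5) h3

end main

end H36.N22
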