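import Mathlib
import Cfsg.Agent.Lib.CGT.Conj
import Cfsg.Agent.Lib.Char.BurnsidePQ

/-! Order types of finite groups of exponent dividing 168. -/

set_option autoImplicit false

namespace H36.OT

open Subgroup

/-- the number of solutions of `g ^ n = 1` -/
noncomputable def cnt (G : Type*) [Group G] (n : ℕ) : ℕ := Nat.card {g : G // g ^ n = 1}

/-- the divisors of 168 -/
def D : List ℕ := [1, 2, 3, 4, 6, 7, 8, 12, 14, 21, 24, 28, 42, 56, 84, 168]

/-- `G` is finite of exponent dividing 168 with the numbers `l` of solutions of `g ^ d = 1`. -/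
structure Prof (G : Type*) [Group G] (l : List ℕ) : Prop where
  fin : Finite G
  exp : ∀ g : G, g ^ 168 = 1
  cnt : D.map (cnt G) = l

theorem cnt_prod (G H : Type*) [Group G] [Group H] (n : ℕ) : cnt (G × H) n = cnt G n * cnt H n := by
  rw [cnt, cnt, cnt, ← Nat.card_prod]
  exact Nat.card_congr ⟨fun x => (⟨x.1.1, congrArg Prod.fst x.2⟩, ⟨x.1.2, congrArg Prod.snd x.2⟩),
    fun y => ⟨(y.1.1, y.2.1), Prod.ext y.1.2 y.2.2⟩, fun _ => rfl, fun _ => rfl⟩

theorem Prof.mul {G H : Type*} [Group G] [Group H] {l m : List ℕ} (a : Prof G l) (b : Prof H m) :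
    Prof (G × H) (List.zipWith (· * ·) l m) := by
  have := a.fin
  have := b.fin
  refine ⟨inferInstance, fun g => Prod.ext (a.exp g.1) (b.exp g.2), ?_⟩
  rw [← a.cnt, ← b.cnt]
  simp only [D, List.map, List.zipWith, cnt_prod]

theorem Prof.get {G : Type*} [Group G] {l : List ℕ} (a : Prof G l) {i : ℕ} (hi : i < 16) :
    OT.cnt G (D.getD i 0) = l.getD i 0 := by
  rw [← a.cnt]
  interval_cases i <;> rfl

theorem Prof.card {G : Type*} [Group G] {l : List ℕ} (a : Prof G l) : Nat.card G = l.getD 15 0 := by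
  rw [← a.get (by norm_num)]
  exact (Nat.card_congr (Equiv.subtypeUnivEquiv a.exp)).symm

theorem Prof.cnt_gcd {G : Type*} [Group G] {l : List ℕ} (a : Prof G l) (n : ℕ) :
    OT.cnt G n = OT.cnt G (Nat.gcd n 168) :=
  Nat.card_congr (Equiv.subtypeEquivRight fun g => by simp [pow_gcd_eq_one, a.exp g])

theorem Prof.cnt_eq {G H : Type*} [Group G] [Group H] {l : List ℕ} (a : Prof G l) (b : Prof H l)
    (n : ℕ) : OT.cnt G n = OT.cnt H n := by
  rw [a.cnt_gcd, b.cnt_gcd]
  have h : ∀ d ∈ Nat.divisors 168, d ∈ D := by decide +kernel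
  exact List.map_inj_left.1 (a.cnt.trans b.cnt.symm) _
    (h _ (Nat.mem_divisors.2 ⟨Nat.gcd_dvd_right _ _, by norm_num⟩))

theorem cnt_eq_sum (G : Type*) [Group G] [Finite G] {n : ℕ} (hn : n ≠ 0) :
    cnt G n = ∑ m ∈ n.divisors, Nat.card {g : G // orderOf g = m} := by
  classical
  have := Fintype.ofFinite G
  simp only [cnt, Nat.card_eq_fintype_card, Fintype.card_subtype]
  exact (sum_card_orderOf_eq_card_pow_eq_one hn).symm

theorem Prof.order_eq {G H : Type*} [Group G] [Group H] {l : List ℕ} (a : Prof G l) (b : Prof H l)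
    (n : ℕ) : Nat.card {g : G // orderOf g = n} = Nat.card {h : H // orderOf h = n} := by
  have := a.fin
  have := b.fin
  induction n using Nat.strong_induction_on with
  | _ n ih =>
  rcases Nat.eq_zero_or_pos n with rfl | hn
  · have : IsEmpty {g : G // orderOf g = 0} := ⟨fun g => (orderOf_pos g.1).ne' g.2⟩
    have : IsEmpty {g : H // orderOf g = 0} := ⟨fun g => (orderOf_pos g.1).ne' g.2⟩
    rw [Nat.card_of_isEmpty, Nat.card_of_isEmpty]
  have h := a.cnt_eq b n
  rw [cnt_eq_sum G hn.ne', cnt_eq_sum H hn.ne', ← Nat.cons_self_properDivisors hn.ne',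
    Finset.sum_cons, Finset.sum_cons, Finset.sum_congr rfl fun m hm =>
      ih m (Nat.mem_properDivisors.1 hm).2] at h
  exact Nat.add_right_cancel h

theorem solvable_of_cnt {G : Type*} [Group G] [Finite G] {p k m q r a b : ℕ} (hp : p.Prime)
    (hq : q.Prime) (hr : r.Prime) (h1 : cnt G (p ^ k) = p ^ k) (h2 : Nat.card G = p ^ k * m)
    (h3 : ¬ p ∣ m) (h4 : m ∣ q ^ a * r ^ b) : Group.IsSolvable G := by
  have := Fact.mk hp
  obtain ⟨P⟩ : Nonempty (Sylow p G) := inferInstance
  have hP : Nat.card (P : Subgroup G) = p ^ k := by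
    rw [Sylow.card_eq_multiplicity, h2, Nat.factorization_mul (pow_pos hp.pos k).ne'
      (by rintro rfl; exact h3 (dvd_zero p)), Finsupp.add_apply, Nat.factorization_eq_zero_of_not_dvd h3,
      hp.factorization_pow, Finsupp.single_eq_same, add_zero]
  have e : ((P : Subgroup G) : Set G) = {g | g ^ p ^ k = 1} := by
    refine Set.eq_of_subset_of_ncard_le (fun g hg => ?_) ?_
    · exact congrArg Subtype.val (hP ▸ pow_card_eq_one' (x := (⟨g, hg⟩ : (P : Subgroup G))))
    · rw [← Nat.card_coe_set_eq, ← Nat.card_coe_set_eq]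
      exact (h1.trans hP.symm).le
  have hn : (P : Subgroup G).Normal := ⟨fun x hx g => by
    have : x ∈ ((P : Subgroup G) : Set G) := hx
    change _ ∈ ((P : Subgroup G) : Set G)
    rw [e] at this ⊢
    change _ ^ _ = 1
    rw [conj_pow, show x ^ p ^ k = 1 from this, mul_one, mul_inv_cancel]⟩
  have : Group.IsSolvable (P : Subgroup G) :=
    H8.isSolvable_of_card_dvd (a := k) (b := 0) hp hp (by simp [hP])
  have : Group.IsSolvable (G ⧸ (P : Subgroup G)) := by
    refine H8.isSolvable_of_card_dvd hq hr (Dvd.dvd.trans (Eq.dvd ?_) h4)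
    have := card_mul_index (P : Subgroup G)
    rw [hP, h2] at this
    exact Nat.eq_of_mul_eq_mul_left (pow_pos hp.pos k) this
  exact Group.isSolvable_of_ker_le_range (P : Subgroup G).subtype (QuotientGroup.mk' P) (by simp)

theorem not_solvable_of_comm {G : Type*} [Group G] {x y z : G} (hx : x ≠ 1)
    (h : x = z * (x * (y * x * y⁻¹) * x⁻¹ * (y * x * y⁻¹)⁻¹) * z⁻¹) : ¬ Group.IsSolvable G := by
  refine not_isSolvable_of_mem_derivedSeries hx fun n => ?_
  induction n with
  | zero => exact mem_top x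
  | succ n ih =>
    rw [h]
    exact (derivedSeries_normal _ _).conj_mem _
      (commutator_mem_commutator ih ((derivedSeries_normal _ _).conj_mem _ ih _)) _

open H54

/-- the profile of a permutation group given by a chain -/
noncomputable def profc (c : Cfg) (ch : Chain) : List ℕ :=
  D.map fun d => sumElts c (fun p => sel (Nat.beq (d % ordc c p) 0) 1 0) ch c.one

theorem prof_of_check {c : Cfg} {n : ℕ} [NeZero n] (hc : c.check = true) (hn : c.n = n) {ch : Chain}
    (hp : allL (isPerm c) ch.gens = true) (hl : checkLow c ch = true) (hu : checkUp c ch = true)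
    {l : List ℕ} (h : profc c ch = l) (hs : ch.size c.n = l.getD 15 0) :
    Prof (grp (Equiv.Perm (Fin n)) c (finPt n) ch.gens) l := by
  have X := ctx_fin hc hn
  have a := good_of_check X (valid_perm X hp) hl hu
  have hK := Kfix_fin (c := c) hn
  have key : ∀ d, OT.cnt (grp (Equiv.Perm (Fin n)) c (finPt n) ch.gens) d =
      sumElts c (fun p => sel (Nat.beq (d % ordc c p) 0) 1 0) ch c.one := fun d => by
    rw [← a.ncard_eq_sumElts X hK (Φ := fun g => g ^ d = 1) fun g p r => by
      rw [Nat.beq_eq, ← r.orderOf_eq X hK, ← Nat.dvd_iff_mod_eq_zero, orderOf_dvd_iff_pow_eq_one],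
      ← Nat.card_coe_set_eq]
    exact Nat.card_congr ⟨fun g => ⟨g.1.1, g.1.2, congrArg Subtype.val g.2⟩,
      fun g => ⟨⟨g.1, g.2.1⟩, Subtype.ext g.2.2⟩, fun _ => rfl, fun _ => rfl⟩
  have h1 : D.map (OT.cnt (grp (Equiv.Perm (Fin n)) c (finPt n) ch.gens)) = l := by
    rw [← h, profc]; exact List.map_congr_left fun d _ => key d
  refine ⟨inferInstance, fun g => ?_, h1⟩
  by_contra hg
  have h2 := Finite.card_subtype_lt (p := fun g : grp (Equiv.Perm (Fin n)) c (finPt n) ch.gens =>
    g ^ 168 = 1) hg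
  rw [a.card X hK, hs, ← h1] at h2
  exact lt_irrefl _ h2

/-- a group with the profile -/
def RA (l : List ℕ) : Prop := ∃ (G : Type) (_ : Group G), Prof G l

/-- a solvable group with the profile -/
def RS (l : List ℕ) : Prop := ∃ (G : Type) (_ : Group G), Prof G l ∧ Group.IsSolvable G

/-- a non-solvable group with the profile -/
def RN (l : List ℕ) : Prop := ∃ (G : Type) (_ : Group G), Prof G l ∧ ¬ Group.IsSolvable G

theorem RS.mul {l m : List ℕ} : RS l → RS m → RS (List.zipWith (· * ·) l m)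
  | ⟨G, _, a, _⟩, ⟨H, _, b, _⟩ => ⟨G × H, inferInstance, a.mul b, inferInstance⟩

theorem RN.mul {l m : List ℕ} : RN l → RA m → RN (List.zipWith (· * ·) l m)
  | ⟨G, _, a, h⟩, ⟨H, _, b⟩ => ⟨G × H, inferInstance, a.mul b, fun _ =>
      h (Group.isSolvable_of_surjective (f := MonoidHom.fst G H) Prod.fst_surjective)⟩

theorem RN.ra {l : List ℕ} : RN l → RA l
  | ⟨G, _, a, _⟩ => ⟨G, _, a⟩

theorem RA.rs_two {l : List ℕ} (h : RA l) (p q a b : ℕ) (hp : p.Prime) (hq : q.Prime)
    (e : l.getD 15 0 ∣ p ^ a * q ^ b) : RS l := by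
  obtain ⟨G, _, h⟩ := h
  have := h.fin
  exact ⟨G, _, h, H8.isSolvable_of_card_dvd hp hq (h.card ▸ e)⟩

theorem RA.rs_norm {l : List ℕ} (h : RA l) (i p k m q r a b : ℕ) (hi : i < 16) (hp : p.Prime)
    (hq : q.Prime) (hr : r.Prime) (e0 : D.getD i 0 = p ^ k) (e1 : l.getD i 0 = p ^ k)
    (e2 : l.getD 15 0 = p ^ k * m) (e3 : ¬ p ∣ m) (e4 : m ∣ q ^ a * r ^ b) : RS l := by
  obtain ⟨G, _, h⟩ := h
  have := h.fin
  exact ⟨G, _, h, solvable_of_cnt hp hq hr (by rw [← e0, h.get hi, e1, e0]) (h.card.trans e2) e3 e4⟩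

theorem rn_of_check {c : Cfg} {n : ℕ} [NeZero n] (hc : c.check = true) (hn : c.n = n) {ch : Chain}
    (hp : allL (isPerm c) ch.gens = true) (hl : checkLow c ch = true) (hu : checkUp c ch = true)
    {l : List ℕ} (h : profc c ch = l) (hs : ch.size c.n = l.getD 15 0) (x y z : ℕ)
    (hx : memb c ch x = true) (hy : memb c ch y = true) (hz : memb c ch z = true)
    (h1 : eqc c x c.one = false) (h2 : eqc c x (conjc c z (commc c x (conjc c y x))) = true) :
    RN l := by
  have X := ctx_fin hc hn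
  have a := good_of_check X (valid_perm X hp) hl hu
  have hK := Kfix_fin (c := c) hn
  obtain ⟨x', x1, x2⟩ := a.in_of_memb X hx
  obtain ⟨y', y1, y2⟩ := a.in_of_memb X hy
  obtain ⟨z', z1, z2⟩ := a.in_of_memb X hz
  refine ⟨_, _, prof_of_check hc hn hp hl hu h hs, not_solvable_of_comm (x := ⟨x', x1⟩)
    (y := ⟨y', y1⟩) (z := ⟨z', z1⟩) (fun e => ?_) (Subtype.ext ?_)⟩
  · have := (x2.eqc_iff X hK (rep_one X)).2 (congrArg Subtype.val e)
    rw [h1] at this
    exact Bool.noConfusion this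
  · exact (x2.eqc_iff X hK (z2.conj X (x2.comm X (y2.conj X x2)))).1 h2

end H36.OT
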