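import Mathlib

/-! Two primes between `m` and `2m` for `m ≥ 6`. -/

set_option autoImplicit false

namespace H36

open Nat

theorem prod_small_le (n : ℕ) (n_pos : 0 < n) :
    ∏ p ∈ Finset.range (2 * n / 3 + 1), p ^ (centralBinom n).factorization p ≤
      (2 * n) ^ sqrt (2 * n) * 4 ^ (2 * n / 3) := by
  have n2_pos : 1 ≤ 2 * n := mul_pos (zero_lt_two' ℕ) n_pos
  let S := {p ∈ Finset.range (2 * n / 3 + 1) | Nat.Prime p}
  let f x := x ^ n.centralBinom.factorization x
  have : ∏ x ∈ S, f x = ∏ x ∈ Finset.range (2 * n / 3 + 1), f x := by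
    refine Finset.prod_filter_of_ne fun p _ h => ?_
    contrapose h; dsimp only [f]
    rw [factorization_eq_zero_of_not_prime n.centralBinom h, _root_.pow_zero]
  rw [← this, ← Finset.prod_filter_mul_prod_filter_not S (· ≤ sqrt (2 * n))]
  apply mul_le_mul'
  · refine (Finset.prod_le_prod' fun p _ => (?_ : f p ≤ 2 * n)).trans ?_
    · exact pow_factorization_choose_le (mul_pos two_pos n_pos)
    have : (Finset.Icc 1 (sqrt (2 * n))).card = sqrt (2 * n) := by rw [card_Icc, Nat.add_sub_cancel]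
    rw [Finset.prod_const]
    refine pow_right_mono₀ n2_pos ((Finset.card_le_card fun x hx => ?_).trans this.le)
    obtain ⟨h1, h2⟩ := Finset.mem_filter.1 hx
    exact Finset.mem_Icc.mpr ⟨(Finset.mem_filter.1 h1).2.one_lt.le, h2⟩
  · refine le_trans ?_ (primorial_le_four_pow (2 * n / 3))
    refine (Finset.prod_le_prod' fun p hp => (?_ : f p ≤ p)).trans ?_
    · obtain ⟨h1, h2⟩ := Finset.mem_filter.1 hp
      refine (pow_right_mono₀ (Finset.mem_filter.1 h1).2.one_lt.le ?_).trans (pow_one p).le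
      exact Nat.factorization_choose_le_one (sqrt_lt'.mp <| not_le.1 h2)
    refine Finset.prod_le_prod_of_subset_of_one_le' (Finset.filter_subset _ _) ?_
    exact fun p hp _ => (Finset.mem_filter.1 hp).2.one_lt.le

theorem centralBinom_le_of_one_prime (n : ℕ) (n_large : 2 < n) (r : ℕ)
    (h : ∀ p : ℕ, p.Prime → n < p → p ≤ 2 * n → p = r) :
    centralBinom n ≤ (2 * n) ^ sqrt (2 * n) * 4 ^ (2 * n / 3) * (2 * n) := by
  classical
  have h1 : centralBinom n ∣ (∏ p ∈ Finset.range (2 * n / 3 + 1),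
      p ^ (centralBinom n).factorization p) * r ^ (centralBinom n).factorization r := by
    conv_lhs => rw [← n.prod_pow_factorization_centralBinom]
    have : ∏ p ∈ Finset.range (2 * n + 1), p ^ (centralBinom n).factorization p ∣
        ∏ p ∈ insert r (Finset.range (2 * n / 3 + 1)), p ^ (centralBinom n).factorization p := by
      rw [← Finset.prod_subset (Finset.inter_subset_left (s₂ := insert r (Finset.range (2 * n / 3 + 1))))]
      · exact Finset.prod_dvd_prod_of_subset _ _ _ Finset.inter_subset_right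
      · intro x hx h2x
        simp only [Finset.mem_inter, hx, true_and, Finset.mem_insert, not_or, Finset.mem_range,
          Nat.lt_succ_iff] at h2x
        rw [Finset.mem_range, Nat.lt_succ_iff] at hx
        by_cases hp : x.Prime
        · have : x ≤ n := by
            by_contra hc
            exact h2x.1 (h x hp (by omega) hx)
          rw [factorization_centralBinom_of_two_mul_self_lt_three_mul n_large this (by omega),
            Nat.pow_zero]
        · rw [factorization_eq_zero_of_not_prime n.centralBinom hp, Nat.pow_zero]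
    refine this.trans ?_
    by_cases hr : r ∈ Finset.range (2 * n / 3 + 1)
    · rw [Finset.insert_eq_of_mem hr]; exact dvd_mul_right _ _
    · rw [Finset.prod_insert hr, mul_comm]
  refine (Nat.le_of_dvd ?_ h1).trans (Nat.mul_le_mul (prod_small_le n (by omega))
    (pow_factorization_choose_le (by omega)))
  have hpos : ∀ p, 0 < p ^ (centralBinom n).factorization p := fun p => by
    rcases Nat.eq_zero_or_pos p with h0 | h0
    · rw [h0, factorization_eq_zero_of_not_prime _ Nat.not_prime_zero]; norm_num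
    · exact Nat.pow_pos h0
  exact Nat.mul_pos (Finset.prod_pos fun p _ => hpos p) (hpos r)

theorem pow_six_le (s : ℕ) (hs : 33 ≤ s) : (s + 1) ^ 6 ≤ 2 ^ (s - 2) := by
  induction s, hs using Nat.le_induction with
  | base => norm_num
  | succ s hs ih =>
    rw [show s + 1 - 2 = s - 2 + 1 by omega, pow_succ 2]
    have h1 : 33 * (s + 1 + 1) ≤ 35 * (s + 1) := by omega
    have h2 := Nat.pow_le_pow_left h1 6
    rw [mul_pow, mul_pow] at h2
    omega

theorem main_ineq {n : ℕ} (hn : 545 ≤ n) :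
    n * ((2 * n) ^ sqrt (2 * n) * 4 ^ (2 * n / 3) * (2 * n)) ≤ 4 ^ n := by
  set s := sqrt (2 * n) with hs
  have h1 : 33 ≤ s := le_sqrt.2 (by omega)
  have h2 : 2 * n < (s + 1) * (s + 1) := lt_succ_sqrt _
  have h3 : s * s ≤ 2 * n := sqrt_le _
  have h4 : (2 * n) ^ (s + 2) ≤ 4 ^ (n - 2 * n / 3) := by
    refine (Nat.pow_le_pow_iff_left (n := 3) (by norm_num)).1 ?_
    calc ((2 * n) ^ (s + 2)) ^ 3 ≤ (((s + 1) * (s + 1)) ^ (s + 2)) ^ 3 := by gcongr
      _ = ((s + 1) ^ 6) ^ (s + 2) := by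
        rw [← sq, ← pow_mul, ← pow_mul, ← pow_mul]; congr 1; ring
      _ ≤ (2 ^ (s - 2)) ^ (s + 2) := Nat.pow_le_pow_left (pow_six_le s h1) _
      _ = 2 ^ ((s - 2) * (s + 2)) := by rw [← pow_mul]
      _ ≤ 2 ^ (2 * ((n - 2 * n / 3) * 3)) := by
        refine Nat.pow_le_pow_right two_pos ?_
        have : (s - 2) * (s + 2) ≤ s * s := by
          obtain ⟨t, ht⟩ : ∃ t, s = t + 2 := ⟨s - 2, by omega⟩
          rw [ht, Nat.add_sub_cancel]; nlinarith
        omega
      _ = (4 ^ (n - 2 * n / 3)) ^ 3 := by rw [pow_mul, ← pow_mul 4]; norm_num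
  calc n * ((2 * n) ^ s * 4 ^ (2 * n / 3) * (2 * n)) ≤
        (2 * n) * ((2 * n) ^ s * 4 ^ (2 * n / 3) * (2 * n)) := by gcongr; omega
    _ = (2 * n) ^ (s + 2) * 4 ^ (2 * n / 3) := by ring
    _ ≤ 4 ^ (n - 2 * n / 3) * 4 ^ (2 * n / 3) := by gcongr
    _ = 4 ^ n := by rw [← pow_add]; congr 1; omega

/-- For `m ≥ 6` there are two primes in `(m, 2m]`. -/
theorem exists_two_primes {m : ℕ} (hm : 6 ≤ m) :
    ∃ p q : ℕ, p.Prime ∧ q.Prime ∧ m < p ∧ p < q ∧ q ≤ 2 * m := by
  rcases lt_or_ge m 545 with h | h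
  · have key : ∀ m ∈ Finset.Ico 6 545, ∃ p ∈ [7, 11, 13, 17, 23, 31, 43, 61, 83, 113, 163, 223,
        317, 443, 631, 883], ∃ q ∈ [7, 11, 13, 17, 23, 31, 43, 61, 83, 113, 163, 223,
        317, 443, 631, 883, 19], m < p ∧ p < q ∧ q ≤ 2 * m := by decide +kernel
    obtain ⟨p, hp, q, hq, h⟩ := key m (Finset.mem_Ico.2 ⟨hm, h⟩)
    have hpr : ∀ p ∈ [7, 11, 13, 17, 23, 31, 43, 61, 83, 113, 163, 223,
        317, 443, 631, 883, 19], Nat.Prime p := by decide +kernel
    exact ⟨p, q, hpr p (List.mem_of_mem_dropLast hp), hpr q hq, h⟩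
  · by_contra hc
    obtain ⟨r, hr, h1, h2⟩ := exists_prime_lt_and_le_two_mul m (by omega)
    have h3 := centralBinom_le_of_one_prime m (by omega) r fun p hp h3 h4 => by
      rcases lt_trichotomy p r with h5 | h5 | h5
      · exact absurd ⟨p, r, hp, hr, h3, h5, h2⟩ hc
      · exact h5
      · exact absurd ⟨r, p, hr, hp, h1, h5, h4⟩ hc
    have h4 := four_pow_lt_mul_centralBinom m (by omega)
    have := (Nat.mul_le_mul_left m h3).trans (main_ineq h)
    omega

end H36
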